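import Cfsg.Agent.H8.MatU
import Cfsg.Agent.H8.Local

/-! Families of linear root subgroups `{1 + c s}`. -/

set_option autoImplicit false

namespace Cfsg.Agent.H8

open Matrix MatrixGroups QP

variable {k E Γ : Type*} [Field k] [Ring E] [Algebra k E] [Group Γ] {ρ : Γ →* E}

theorem esm (c : k) {a b : E} (h : a = b) : c • a = c • b := by rw [h]

variable (k ρ) in
/-- the subgroup generated by the elements acting as `1 + c s` -/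
def Lq (s : E) : Subgroup Γ := Subgroup.closure {g | ∃ c : k, ρ g = 1 + c • s}

theorem rho_inv_of {g : Γ} {s : E} (hs : s * s = 0) (h : ρ g = 1 + s) : ρ g⁻¹ = 1 - s := by
  calc ρ g⁻¹ = ρ g⁻¹ * (ρ g * (1 - s)) := by rw [h]; nlc ρ g⁻¹ * hs
    _ = 1 - s := by rw [← mul_assoc, ← map_mul, inv_mul_cancel, map_one, one_mul]

theorem mem_Lq {s : E} (hs : s * s = 0) {g : Γ} : g ∈ Lq k ρ s ↔ ∃ c : k, ρ g = 1 + c • s := by
  refine ⟨fun h => ?_, fun h => Subgroup.subset_closure h⟩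
  induction h using Subgroup.closure_induction with
  | mem x hx => exact hx
  | one => exact ⟨0, by simp⟩
  | mul x y _ _ hx hy =>
    obtain ⟨a, ha⟩ := hx
    obtain ⟨b, hb⟩ := hy
    exact ⟨a + b, by rw [map_mul, ha, hb]; nlc esm (a * b) hs⟩
  | inv x _ hx =>
    obtain ⟨a, ha⟩ := hx
    exact ⟨-a, by rw [rho_inv_of (smul_sq_zero hs a) ha]; module⟩

theorem Lq_smul {c : k} (hc : c ≠ 0) (s : E) : Lq k ρ (c • s) = Lq k ρ s := by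
  unfold Lq
  congr 1
  ext g
  constructor
  · rintro ⟨a, ha⟩
    exact ⟨a * c, by rw [ha, smul_smul]⟩
  · rintro ⟨a, ha⟩
    exact ⟨a * c⁻¹, by rw [ha, smul_smul, mul_assoc, inv_mul_cancel₀ hc, mul_one]⟩

theorem smul_Lq (g : Γ) (s : E) : g • Lq k ρ s = Lq k ρ (ρ g * s * ρ g⁻¹) := by
  have e1 : ρ g * ρ g⁻¹ = 1 := by rw [← map_mul, mul_inv_cancel, map_one]
  have e2 : ρ g⁻¹ * ρ g = 1 := by rw [← map_mul, inv_mul_cancel, map_one]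
  unfold Lq
  rw [smul_closure]
  congr 1
  ext x
  constructor
  · rintro ⟨y, ⟨a, ha⟩, rfl⟩
    exact ⟨a, by simp only [map_mul, ha]; nlc e1⟩
  · rintro ⟨a, ha⟩
    refine ⟨g⁻¹ * x * g, ⟨a, ?_⟩, by group⟩
    simp only [map_mul, ha]
    nlc e2 + e2 * (a • s * (ρ g⁻¹ * ρ g)) + (a • s) * e2

variable (k ρ) in
/-- a family of square-zero elements with the root trichotomy -/
structure Fam (𝒮 : Set E) : Prop where
  inj : Function.Injective ρ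
  sq : ∀ s ∈ 𝒮, s * s = 0
  ne : ∀ s ∈ 𝒮, s ≠ 0
  full : ∀ s ∈ 𝒮, ∀ c : k, ∃ g, ρ g = 1 + c • s
  conj : ∀ s ∈ 𝒮, ∀ g : Γ, ρ g * s * ρ g⁻¹ ∈ 𝒮
  tri : ∀ s ∈ 𝒮, ∀ t ∈ 𝒮, s * t = t * s ∨
    (∃ c : k, c ≠ 0 ∧ s * t * s = c • s ∧ t * s * t = c • t) ∨
    (s * t * s = 0 ∧ t * s * t = 0 ∧ s * t - t * s ∈ 𝒮)

namespace Fam

variable {𝒮 : Set E} (h : Fam k ρ 𝒮) {s t : E}
include h

theorem cm_iff (hs : s ∈ 𝒮) (ht : t ∈ 𝒮) : Cm (Lq k ρ s) (Lq k ρ t) ↔ s * t = t * s := by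
  constructor
  · intro hc
    obtain ⟨a, ha⟩ := h.full s hs 1
    obtain ⟨b, hb⟩ := h.full t ht 1
    have := congrArg ρ (hc a ((mem_Lq (h.sq s hs)).2 ⟨1, ha⟩) b ((mem_Lq (h.sq t ht)).2 ⟨1, hb⟩))
    rw [map_mul, map_mul, ha, hb] at this
    nlc this
  · intro e a ha b hb
    obtain ⟨c, hc⟩ := (mem_Lq (h.sq s hs)).1 ha
    obtain ⟨d, hd⟩ := (mem_Lq (h.sq t ht)).1 hb
    apply h.inj
    rw [map_mul, map_mul, hc, hd]
    nlc esm (c * d) e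

theorem ne_bot (hs : s ∈ 𝒮) : Lq k ρ s ≠ ⊥ := by
  intro e
  obtain ⟨a, ha⟩ := h.full s hs 1
  have h1 : a ∈ Lq k ρ s := (mem_Lq (h.sq s hs)).2 ⟨1, ha⟩
  rw [e, Subgroup.mem_bot] at h1
  rw [h1, map_one, one_smul] at ha
  exact h.ne s hs (by nlc -ha)

theorem smul_mem {A : Subgroup Γ} (hA : A ∈ Lq k ρ '' 𝒮) (g : Γ) : g • A ∈ Lq k ρ '' 𝒮 := by
  obtain ⟨s, hs, rfl⟩ := hA
  exact ⟨_, h.conj s hs g, (smul_Lq g s).symm⟩

omit h in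
theorem mem_map_iff (hs : s * s = 0) (hf : ∀ c : k, ∃ g, ρ g = 1 + c • s) {x : Eˣ} :
    x ∈ (Lq k ρ s).map ρ.toHomUnits ↔ ∃ c : k, (x : E) = 1 + c • s := by
  constructor
  · rintro ⟨g, hg, rfl⟩
    exact (mem_Lq hs).1 hg
  · rintro ⟨c, hc⟩
    obtain ⟨g, hg⟩ := hf c
    exact ⟨g, (mem_Lq hs).2 ⟨c, hg⟩, Units.ext (by simp [hg, hc])⟩

theorem psl2 (hs : s ∈ 𝒮) (ht : t ∈ 𝒮) {c : k} (hc : c ≠ 0) (e1 : s * t * s = c • s)
    (e2 : t * s * t = c • t) : IsPSL2PairOver k (Lq k ρ s) (Lq k ρ t) := by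
  have inj : Function.Injective ρ.toHomUnits := fun a b e => h.inj (by
    simpa using congrArg Units.val e)
  have hc' : c⁻¹ * c = 1 := inv_mul_cancel₀ hc
  obtain ⟨φ, h1, h2, h3⟩ := exists_sl2_hom_smul (k := k) (s := s) (d := c⁻¹ • t) (h.sq s hs)
    (smul_sq_zero (h.sq t ht) _)
    (by rw [mul_smul_comm, smul_mul_assoc, e1, smul_smul, hc', one_smul])
    (by rw [smul_mul_assoc, smul_mul_assoc, mul_smul_comm, e2, smul_smul c⁻¹ c, hc', one_smul])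
    (h.ne s hs)
  have hu : (upperUnipotentSL2 k).map φ = (Lq k ρ s).map ρ.toHomUnits := by
    ext x
    rw [mem_map_iff (h.sq s hs) (h.full s hs)]
    constructor
    · rintro ⟨y, hy, rfl⟩
      obtain ⟨a, rfl⟩ := mem_upper_iff.1 hy
      exact ⟨a, h1 a⟩
    · rintro ⟨a, ha⟩
      exact ⟨uX a, mem_upper_iff.2 ⟨a, rfl⟩, Units.ext (by rw [h1, ha])⟩
  have hl : (lowerUnipotentSL2 k).map φ = (Lq k ρ t).map ρ.toHomUnits := by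
    ext x
    rw [mem_map_iff (h.sq t ht) (h.full t ht)]
    constructor
    · rintro ⟨y, hy, rfl⟩
      obtain ⟨a, rfl⟩ := mem_lower_iff.1 hy
      exact ⟨a * c⁻¹, by rw [h2, smul_smul]⟩
    · rintro ⟨a, ha⟩
      exact ⟨uY (a * c), mem_lower_iff.2 ⟨_, rfl⟩, Units.ext (by
        rw [h2, ha, smul_smul, mul_assoc, mul_inv_cancel₀ hc, mul_one])⟩
  exact psl2_of_map inj ⟨φ, by rw [range_eq_sup, hu, hl], h3, hu, hl⟩

theorem ro (hs : s ∈ 𝒮) (ht : t ∈ 𝒮) {c : k} (hc : c ≠ 0) (e1 : s * t * s = c • s)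
    (e2 : t * s * t = c • t) : IsRankOnePair (Lq k ρ s) (Lq k ρ t) :=
  (special_of_psl2Pair (h.psl2 hs ht hc e1 e2)).1

theorem comm_val (hs : s ∈ 𝒮) (ht : t ∈ 𝒮) (e1 : s * t * s = 0) (e2 : t * s * t = 0) {a b : Γ}
    {α β : k} (ha : ρ a = 1 + α • s) (hb : ρ b = 1 + β • t) :
    ρ (a * b * a⁻¹ * b⁻¹) = 1 + (α * β) • (s * t - t * s) := by
  have s2 := h.sq s hs
  have t2 := h.sq t ht
  simp only [map_mul]
  rw [rho_inv_of (smul_sq_zero s2 α) ha, rho_inv_of (smul_sq_zero t2 β) hb, ha, hb]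
  nlc -esm (α * α) s2 - esm (β * β) t2 - esm (α * α * β) e1 + esm (α * α * β) s2 * t
    - s * esm (α * β * β) t2 + esm (α * β * β) e2 + esm (α * α * β * β) e1 * t

theorem commutator_eq (hs : s ∈ 𝒮) (ht : t ∈ 𝒮) (e1 : s * t * s = 0) (e2 : t * s * t = 0)
    (hu : s * t - t * s ∈ 𝒮) : ⁅Lq k ρ s, Lq k ρ t⁆ = Lq k ρ (s * t - t * s) := by
  apply le_antisymm
  · rw [commutator_le']
    intro a ha b hb
    obtain ⟨α, hα⟩ := (mem_Lq (h.sq s hs)).1 ha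
    obtain ⟨β, hβ⟩ := (mem_Lq (h.sq t ht)).1 hb
    exact (mem_Lq (h.sq _ hu)).2 ⟨_, h.comm_val hs ht e1 e2 hα hβ⟩
  · intro x hx
    obtain ⟨γ, hγ⟩ := (mem_Lq (h.sq _ hu)).1 hx
    obtain ⟨a, ha⟩ := h.full s hs 1
    obtain ⟨b, hb⟩ := h.full t ht γ
    have : x = a * b * a⁻¹ * b⁻¹ := h.inj (by rw [h.comm_val hs ht e1 e2 ha hb, one_mul, hγ])
    rw [this]
    exact comm_mem ((mem_Lq (h.sq s hs)).2 ⟨_, ha⟩) ((mem_Lq (h.sq t ht)).2 ⟨_, hb⟩)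

theorem cc (hs : s ∈ 𝒮) (ht : t ∈ 𝒮) (e1 : s * t * s = 0) (e2 : t * s * t = 0)
    (hu : s * t - t * s ∈ 𝒮) : RootCommutatorCase (Lq k ρ '' 𝒮) (Lq k ρ s) (Lq k ρ t) := by
  have s2 := h.sq s hs
  have t2 := h.sq t ht
  have e := h.commutator_eq hs ht e1 e2 hu
  refine ⟨e ▸ ⟨_, hu, rfl⟩, ?_, fun a ha ha1 => ?_, fun b hb hb1 => ?_⟩
  · rw [e]
    refine Cm.sup_right ((h.cm_iff hu hs).2 ?_) ((h.cm_iff hu ht).2 ?_)
    · nlc e1 + e1 - t * s2 - s2 * t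
    · nlc s * t2 - e2 - e2 + t2 * s
  · apply le_antisymm
    · rw [Subgroup.closure_le]
      rintro _ ⟨b, hb, rfl⟩
      exact comm_mem ha hb
    · rw [e]
      intro x hx
      obtain ⟨γ, hγ⟩ := (mem_Lq (h.sq _ hu)).1 hx
      obtain ⟨α, hα⟩ := (mem_Lq s2).1 ha
      have hα0 : α ≠ 0 := by
        rintro rfl
        exact ha1 (h.inj (by simpa using hα))
      obtain ⟨b, hb⟩ := h.full t ht (α⁻¹ * γ)
      refine Subgroup.subset_closure ⟨b, (mem_Lq t2).2 ⟨_, hb⟩, h.inj ?_⟩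
      rw [h.comm_val hs ht e1 e2 hα hb, mul_inv_cancel_left₀ hα0, hγ]
  · apply le_antisymm
    · rw [Subgroup.closure_le]
      rintro _ ⟨a, ha, rfl⟩
      exact comm_mem ha hb
    · rw [e]
      intro x hx
      obtain ⟨γ, hγ⟩ := (mem_Lq (h.sq _ hu)).1 hx
      obtain ⟨β, hβ⟩ := (mem_Lq t2).1 hb
      have hβ0 : β ≠ 0 := by
        rintro rfl
        exact hb1 (h.inj (by simpa using hβ))
      obtain ⟨a, ha⟩ := h.full s hs (γ * β⁻¹)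
      refine Subgroup.subset_closure ⟨a, (mem_Lq s2).2 ⟨_, ha⟩, h.inj ?_⟩
      rw [h.comm_val hs ht e1 e2 ha hβ, inv_mul_cancel_right₀ hβ0, hγ]

theorem lrs : LRS (Lq k ρ '' 𝒮) where
  cm := by
    rintro _ ⟨s, hs, rfl⟩
    exact (h.cm_iff hs hs).2 rfl
  ne_bot := by
    rintro _ ⟨s, hs, rfl⟩
    exact h.ne_bot hs
  conj := fun _ _ a _ _ hB => h.smul_mem hB a
  pair := by
    rintro _ ⟨s, hs, rfl⟩ _ ⟨t, ht, rfl⟩
    rcases h.tri s hs t ht with e | ⟨c, hc, e1, e2⟩ | ⟨e1, e2, hu⟩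
    · exact Or.inl ((h.cm_iff hs ht).2 e)
    · exact Or.inr (Or.inl (h.ro hs ht hc e1 e2))
    · exact Or.inr (Or.inr (h.cc hs ht e1 e2 hu))

theorem root (hg : (⨆ A ∈ Lq k ρ '' 𝒮, A) = ⊤) : IsRootSubgroupSet (Lq k ρ '' 𝒮) where
  commutative := fun A hA => cm_self_iff.1 (h.lrs.cm A hA)
  ne_bot := h.lrs.ne_bot
  generates := hg
  conj_mem := fun _ hA g => h.smul_mem hA g
  pair := fun A hA B hB => by rw [← H8.cm_iff]; exact h.lrs.pair A hA B hB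

theorem not_ro (hs : s ∈ 𝒮) (ht : t ∈ 𝒮) (e1 : s * t * s = 0) (e2 : t * s * t = 0) :
    ¬ IsRankOnePair (Lq k ρ s) (Lq k ρ t) := by
  intro hr
  have s2 := h.sq s hs
  have t2 := h.sq t ht
  refine RO.not_smul_cm hr fun a ha => ?_
  obtain ⟨α, hα⟩ := (mem_Lq s2).1 ha
  rw [smul_Lq, h.cm_iff ht (h.conj t ht a), rho_inv_of (smul_sq_zero s2 α) hα, hα]
  nlc esm α e2 - esm α t2 * s - t * esm (α * α) e1 + esm α e2 - s * esm α t2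
    + esm (α * α) e1 * t

theorem psl2_of_ro {A B : Subgroup Γ} (hA : A ∈ Lq k ρ '' 𝒮) (hB : B ∈ Lq k ρ '' 𝒮)
    (hr : IsRankOnePair A B) : IsPSL2PairOver k A B := by
  obtain ⟨s, hs, rfl⟩ := hA
  obtain ⟨t, ht, rfl⟩ := hB
  rcases h.tri s hs t ht with e | ⟨c, hc, e1, e2⟩ | ⟨e1, e2, -⟩
  · exact absurd ((h.cm_iff hs ht).2 e) (RO.not_cm hr)
  · exact h.psl2 hs ht hc e1 e2
  · exact absurd hr (h.not_ro hs ht e1 e2)

theorem kroot (hg : (⨆ A ∈ Lq k ρ '' 𝒮, A) = ⊤) : IsKRootSubgroupSet k (Lq k ρ '' 𝒮) :=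
  ⟨h.root hg, fun _ hA _ hB hr => h.psl2_of_ro hA hB hr⟩

theorem kroot_loc : IsKRootSubgroupSet k (loc (Lq k ρ '' 𝒮)) :=
  ⟨h.lrs.root, fun _ hA _ hB hr => psl2_of_map (Subgroup.subtype_injective _)
    (h.psl2_of_ro (mem_loc_iff.1 hA) (mem_loc_iff.1 hB)
      ((ro_map_iff (Subgroup.subtype_injective _)).2 hr))⟩

theorem deg_loc (hd : ∀ s ∈ 𝒮, ∀ t ∈ 𝒮, s * t = t * s ∨
    (∃ c : k, c ≠ 0 ∧ s * t * s = c • s ∧ t * s * t = c • t)) :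
    IsDegenerateRootSet (loc (Lq k ρ '' 𝒮)) := by
  intro A hA B hB hc
  obtain ⟨s, hs, es⟩ := mem_loc_iff.1 hA
  obtain ⟨t, ht, et⟩ := mem_loc_iff.1 hB
  rcases hd s hs t ht with e | ⟨c, hc0, e1, e2⟩
  · refine CC.not_cm h.lrs.root hc ((cm_map_iff (Subgroup.subtype_injective _)).1 ?_)
    rw [← es, ← et]
    exact (h.cm_iff hs ht).2 e
  · refine RS.not_ro_of_cc h.lrs.root hB hc ((ro_map_iff (Subgroup.subtype_injective _)).1 ?_)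
    rw [← es, ← et]
    exact h.ro hs ht hc0 e1 e2

theorem deg (hg : (⨆ A ∈ Lq k ρ '' 𝒮, A) = ⊤) (hd : ∀ s ∈ 𝒮, ∀ t ∈ 𝒮, s * t = t * s ∨
    (∃ c : k, c ≠ 0 ∧ s * t * s = c • s ∧ t * s * t = c • t)) :
    IsDegenerateRootSet (Lq k ρ '' 𝒮) := by
  rintro _ ⟨s, hs, rfl⟩ _ ⟨t, ht, rfl⟩ hc
  rcases hd s hs t ht with e | ⟨c, hc0, e1, e2⟩
  · exact CC.not_cm (h.root hg) hc ((h.cm_iff hs ht).2 e)
  · exact RS.not_ro_of_cc (h.root hg) ⟨t, ht, rfl⟩ hc (h.ro hs ht hc0 e1 e2)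

theorem class_of_conn (hg : (⨆ A ∈ Lq k ρ '' 𝒮, A) = ⊤) (hne : 𝒮.Nonempty)
    (hc : ∀ s ∈ 𝒮, ∀ t ∈ 𝒮, Reach (Lq k ρ '' 𝒮) (Lq k ρ s) (Lq k ρ t)) :
    IsRootSubgroupClass (Lq k ρ '' 𝒮) := by
  refine ⟨h.root hg, hne.image _, ?_⟩
  rintro _ ⟨s, hs, rfl⟩ _ ⟨t, ht, rfl⟩
  exact (hc s hs t ht).exists_smul

end Fam

end Cfsg.Agent.H8
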