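import Mathlib

/-! The geometry of a connected set of transvections (McLaughlin). -/

set_option autoImplicit false

namespace Cfsg.Agent.H8

variable {F X Y : Type*} [Field F] [AddCommGroup X] [Module F X] [AddCommGroup Y] [Module F Y]

/-- a connected set of centre-axis pairs -/
structure Geo (β : Y →ₗ[F] X →ₗ[F] F) (C : X → Y → Prop) : Prop where
  two : (2 : F) ≠ 0
  z : ∀ {a f}, C a f → β f a = 0
  sc : ∀ {a f} {x y : F}, C a f → x ≠ 0 → y ≠ 0 → C (x • a) (y • f)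
  cj : ∀ {a f b g}, C a f → C b g → ∀ l : F, C (b + (l * β f b) • a) (g - (l * β g a) • f)
  cc : ∀ {a f b g}, C a f → C b g → β f b ≠ 0 → β g a = 0 → C a g
  ni : ∀ {a f}, C a f → ∃ b g, C b g ∧ β f b ≠ 0 ∧ β g a ≠ 0
  add1 : ∀ {a f g}, C a f → C a g → f + g ≠ 0 → C a (f + g)
  add2 : ∀ {a b f}, C a f → C b f → a + b ≠ 0 → C (a + b) f
  quad : ∀ {a f b g}, C a f → C b g → C (a + b) (f + g) → β f b = 0 → β g a = 0 → a - b ≠ 0 →
    f - g ≠ 0 → C (a - b) (f - g)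
  conn : ∀ P : X → Y → Prop, (∀ a f b g, C a f → C b g → β f b ≠ 0 → β g a ≠ 0 → P a f → P b g) →
    ∀ {a f b g}, C a f → C b g → P a f → P b g

/-- the span of the centres -/
def geoW (F : Type*) [Field F] [Module F X] (C : X → Y → Prop) : Submodule F X :=
  Submodule.span F {a | ∃ f, C a f}

theorem avoid_two (h2 : (2 : F) ≠ 0) {a b c d : F} (h : a ≠ 0 ∨ b ≠ 0) (h' : c ≠ 0 ∨ d ≠ 0) :
    ∃ μ, a + μ * b ≠ 0 ∧ c + μ * d ≠ 0 := by
  have k : ∀ {x y : F}, x ≠ 0 ∨ y ≠ 0 → ∀ {s t : F}, s ≠ t → x + s * y = 0 → x + t * y ≠ 0 :=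
    fun {x y} h {s t} hst e e' => by
      have hy : y = 0 := (mul_eq_zero.1 (by linear_combination e - e')).resolve_left
        (sub_ne_zero.2 hst)
      simp_all
  have n1 : (1 : F) ≠ -1 := fun e => h2 (by linear_combination e)
  have n2 : (0 : F) ≠ -1 := by simp
  by_cases h0 : a + 0 * b = 0
  · by_cases h1 : c + 1 * d = 0
    · exact ⟨-1, k h n2 h0, k h' n1 h1⟩
    · exact ⟨1, k h zero_ne_one h0, h1⟩
  by_cases h0' : c + 0 * d = 0
  · by_cases h1 : a + 1 * b = 0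
    · exact ⟨-1, k h n1 h1, k h' n2 h0'⟩
    · exact ⟨1, h1, k h' zero_ne_one h0'⟩
  · exact ⟨0, h0, h0'⟩

namespace Geo

variable {β : Y →ₗ[F] X →ₗ[F] F} {C : X → Y → Prop} (G : Geo β C) {a b c d : X} {f g h k : Y}
include G

theorem flip : Geo β.flip (fun f a => C a f) where
  two := G.two
  z := G.z
  sc := fun h hx hy => G.sc h hy hx
  cj := fun h h' l => by simpa [sub_eq_add_neg] using G.cj h h' (-l)
  cc := fun h h' h1 h2 => G.cc h' h h1 h2
  ni := fun h => by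
    obtain ⟨b, g, h1, h2, h3⟩ := G.ni h
    exact ⟨g, b, h1, h3, h2⟩
  add1 := G.add2
  add2 := G.add1
  quad := fun h1 h2 h3 h4 h5 h6 h7 => G.quad h1 h2 h3 h5 h4 h7 h6
  conn := fun P hP _ _ _ _ h1 h2 =>
    G.conn (fun a f => P f a) (fun _ _ _ _ h h' e e' => hP _ _ _ _ h h' e' e) h1 h2

theorem sc1 (h : C a f) {x : F} (hx : x ≠ 0) : C (x • a) f := by
  simpa using G.sc h hx one_ne_zero

theorem sc2 (h : C a f) {x : F} (hx : x ≠ 0) : C a (x • f) := by
  simpa using G.sc h one_ne_zero hx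

theorem ne1 (h : C a f) : a ≠ 0 := by
  rintro rfl
  obtain ⟨b, g, -, -, h3⟩ := G.ni h
  simp at h3

theorem ne2 (h : C a f) : f ≠ 0 := G.flip.ne1 h

theorem transport (P : X → Prop) (hs : ∀ b (x : F), x ≠ 0 → P b → P (x • b))
    (ht : ∀ b d k (l : F), C d k → P b → P (b + (l * β k b) • d)) (ha : C a f) (hb : C b g)
    (h : P a) : P b := by
  refine G.conn (fun a _ => P a) (fun b g d k hb hd h1 h2 hP => ?_) ha hb h
  have := hs _ _ (inv_ne_zero h2) (ht _ _ _ (-(β k b * β g d)⁻¹) hb (ht _ _ _ 1 hd hP))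
  convert this using 1
  simp only [map_add, map_smul, G.z hb, smul_eq_mul]
  match_scalars <;> (field_simp; try ring)

theorem claimA (ha : C a f) (hb : C b g) : ∃ c h, C c h ∧ β h a ≠ 0 ∧ β f c ≠ 0 ∧ β h b ≠ 0 := by
  refine G.transport (fun b => ∃ c h, C c h ∧ β h a ≠ 0 ∧ β f c ≠ 0 ∧ β h b ≠ 0) ?_ ?_ ha hb ?_
  · rintro b x hx ⟨c, h, h1, h2, h3, h4⟩
    exact ⟨c, h, h1, h2, h3, by simp [hx, h4]⟩
  · rintro b d k l hd ⟨c, h, h1, h2, h3, h4⟩
    by_cases h5 : β h (b + (l * β k b) • d) = 0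
    swap
    · exact ⟨c, h, h1, h2, h3, h5⟩
    have h6 : β k b ≠ 0 := fun e => h4 (by simpa [e] using h5)
    have h7 : β h d ≠ 0 := fun e => h4 (by simpa [e] using h5)
    have h8 : β k (b + (l * β k b) • d) = β k b := by simp [G.z hd]
    generalize b + (l * β k b) • d = b' at *
    by_cases h9 : β k a ≠ 0 ∨ β k c ≠ 0
    · obtain ⟨μ, e1, e2⟩ := avoid_two G.two (a := β f d) (Or.inr (mul_ne_zero h7 h3))
        (c := β k a) (d := -(β k c * β h a)) (h9.imp_right fun e => neg_ne_zero.2 (mul_ne_zero e h2))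
      refine ⟨_, _, G.cj h1 hd μ, ?_, ?_, by simp [h5, h8, h6]⟩
      · convert e2 using 1
        simp
        ring
      · convert e1 using 1
        simp
        ring
    · push Not at h9
      exact ⟨c, h + k, G.add1 h1 (G.cc h1 hd h7 h9.2) fun e => h2 (by
        simpa [h9.1] using congrArg (fun x => β x a) e), by simp [h9.1, h2], h3,
        by simp [h5, h8, h6]⟩
  · obtain ⟨c, h, h1, h2, h3⟩ := G.ni ha
    exact ⟨c, h, h1, h3, h2, h3⟩

theorem line (ha : C a f) (hb : C b g) (hab : a + b ≠ 0) : ∃ k, C (a + b) k := by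
  by_cases h1 : β f b = 0
  swap
  · exact ⟨_, by simpa [h1, add_comm] using G.cj ha hb (β f b)⁻¹⟩
  by_cases h2 : β g a = 0
  swap
  · exact ⟨_, by simpa [h2] using G.cj hb ha (β g a)⁻¹⟩
  obtain ⟨c, h, hc, h3, h4, h5⟩ := G.claimA ha hb
  have key : ∀ x : F, β h b + x * β h a ≠ 0 →
      C (b + x • a) (g + (x * (β h a * β g c / (β f c * β h b))) • f) := fun x hx => by
    have := G.cj hc (G.cj (G.cj hc ha 1) hb (-x / (β f c * β h b))) (-(x * β h a) / (β h b + x * β h a))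
    simp only [map_add, map_sub, map_smul, LinearMap.sub_apply, LinearMap.smul_apply, smul_eq_mul,
      G.z hc, h1, h2] at this
    convert this using 1 <;> match_scalars <;> field_simp <;> ring
  generalize β h a * β g c / (β f c * β h b) = δ at key
  by_cases h6 : β h b + 1 * β h a = 0
  swap
  · exact ⟨_, by simpa [add_comm] using key 1 h6⟩
  have h7 := key (-1) fun e => mul_ne_zero G.two h3 (by linear_combination h6 - e)
  by_cases h8 : δ = 0
  · refine ⟨g, G.add2 ?_ hb hab⟩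
    have := G.add2 (G.sc1 h7 (x := -1) (by simp)) (by simpa [h8] using hb) (by simpa using G.ne1 ha)
    simpa [h8] using this
  by_cases h9 : g + δ • f = 0
  · refine ⟨g, G.add2 ?_ hb hab⟩
    rw [show g = (-δ) • f by linear_combination (norm := module) h9]
    exact G.sc2 ha (neg_ne_zero.2 h8)
  · have := G.quad hb (G.sc ha (x := -1) (y := -1 * δ) (by simp) (by simp [h8])) h7 (by simp [h2])
      (by simp [h1]) (by simpa [add_comm] using hab) (by simpa using h9)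
    exact ⟨_, by simpa [add_comm] using this⟩

omit G [AddCommGroup Y] [Module F Y] in
theorem mem (ha : C a f) : a ∈ geoW F C := Submodule.subset_span ⟨f, ha⟩

theorem exists_axis (ha : a ∈ geoW F C) (h0 : a ≠ 0) : ∃ f, C a f := by
  suffices a = 0 ∨ ∃ f, C a f from this.resolve_left h0
  clear h0
  induction ha using Submodule.span_induction with
  | mem x hx => exact Or.inr hx
  | zero => exact Or.inl rfl
  | add x y _ _ hx hy =>
    rcases hx with rfl | ⟨f, hf⟩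
    · simpa using hy
    rcases hy with rfl | ⟨g, hg⟩
    · exact Or.inr ⟨f, by simpa using hf⟩
    exact (eq_or_ne _ _).imp_right (G.line hf hg)
  | smul x y _ hy =>
    rcases hy with rfl | ⟨g, hg⟩
    · simp
    by_cases hx : x = 0
    · simp [hx]
    · exact Or.inr ⟨g, G.sc1 hg hx⟩

theorem eq_zero (hf : f ∈ geoW F fun f a => C a f) (h : ∀ w ∈ geoW F C, β f w = 0) : f = 0 := by
  by_contra h0
  obtain ⟨a, ha⟩ := G.flip.exists_axis hf h0
  obtain ⟨b, g, h1, h2, -⟩ := G.ni ha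
  exact h2 (h b (mem h1))

theorem sym (ha : C a f) (hb : C b g) (h : β g a ≠ 0) : ∃ f', C a f' ∧ β f' b ≠ 0 := by
  by_cases h1 : β f b = 0
  swap
  · exact ⟨f, ha, h1⟩
  obtain ⟨c, k, hc, h3, h4, h5⟩ := G.claimA ha hb
  obtain ⟨c, k, hc, h3, h4, h5, h6⟩ :
      ∃ c k, C c k ∧ β k a ≠ 0 ∧ β f c ≠ 0 ∧ β k b ≠ 0 ∧ β g c = 0 :=
    ⟨_, _, G.cj ha hc (-β g c / (β f c * β g a)), by simp [G.z ha, h3], by simp [G.z ha, h4],
      by simp [h1, h5], by simp; field_simp; ring⟩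
  have := G.sc1 (G.cj hc (G.cj ha (G.cc hc hb h5 h6) 1) (-(β f c * β k a)⁻¹)) (inv_ne_zero h4)
  simp only [map_add, map_smul, smul_eq_mul, G.z hc] at this
  refine ⟨_, by convert this using 1; match_scalars <;> (field_simp; try ring), ?_⟩
  simp [G.z hb, h1, h6, h, h3, h4, h5]

theorem full (h0 : ∃ a f g, C a f ∧ C a g ∧ ∀ x : F, g ≠ x • f) (ha : a ∈ geoW F C)
    (hg : g ∈ geoW F fun f a => C a f) (a0 : a ≠ 0) (g0 : g ≠ 0) (h : β g a = 0) : C a g := by
  obtain ⟨b, hb⟩ := G.flip.exists_axis hg g0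
  obtain ⟨l, hl, hlg⟩ : ∃ l, C b l ∧ ∀ x : F, l ≠ x • g := by
    obtain ⟨a, f, f', h1, h2, h3⟩ := h0
    obtain ⟨l, l', e1, e2, e3⟩ := G.transport
      (fun b => ∃ l l', C b l ∧ C b l' ∧ ∀ x : F, l' ≠ x • l)
      (fun b x hx ⟨l, l', e1, e2, e3⟩ => ⟨l, l', G.sc1 e1 hx, G.sc1 e2 hx, e3⟩)
      (fun b d k x hd ⟨l, l', e1, e2, e3⟩ => ⟨_, _, G.cj hd e1 x, G.cj hd e2 x, fun y e => e3 y (by
        have : β l' d = y * β l d := by simpa [G.z hd] using congrArg (fun z => β z d) e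
        rw [this] at e
        linear_combination (norm := module) e)⟩) h1 hb ⟨f, f', h1, h2, h3⟩
    by_contra hc
    push Not at hc
    obtain ⟨x, rfl⟩ := hc l e1
    obtain ⟨y, rfl⟩ := hc l' e2
    have : x ≠ 0 := fun e => G.ne2 e1 (by simp [e])
    exact e3 (y / x) (by rw [smul_smul, div_mul_cancel₀ _ this])
  have step : ∀ a ∈ geoW F C, β g a = 0 → β l a ≠ 0 → C a g := fun a ha h1 h2 => by
    obtain ⟨f, hf⟩ := G.exists_axis ha (fun e => h2 (by simp [e]))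
    obtain ⟨f', h3, h4⟩ := G.sym hf hl h2
    exact G.cc h3 hb h4 h1
  by_cases h1 : β l a = 0
  swap
  · exact step a ha h h1
  obtain ⟨u, hu, h2, h3⟩ : ∃ u ∈ geoW F C, β g u = 0 ∧ β l u ≠ 0 := by
    by_contra hc
    push Not at hc
    obtain ⟨w, k, hw, e, -⟩ := G.ni hb
    refine hlg (β l w / β g w) (sub_eq_zero.1 (G.eq_zero (Submodule.sub_mem _ (mem hl)
      (Submodule.smul_mem _ _ hg)) fun v hv => ?_))
    have := hc (v - (β g v / β g w) • w) (Submodule.sub_mem _ hv (Submodule.smul_mem _ _ (mem hw)))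
      (by simp [e])
    simp only [map_sub, map_smul, smul_eq_mul, LinearMap.sub_apply, LinearMap.smul_apply] at this ⊢
    linear_combination this
  simpa using G.add2 (step (a + u) (Submodule.add_mem _ ha hu) (by simp [h, h2]) (by simp [h1, h3]))
    (step (-u) (Submodule.neg_mem _ hu) (by simp [h2]) (by simp [h3])) (by simpa using a0)

section sp

variable (uq : ∀ a f g, C a f → C a g → ∃ x : F, g = x • f)
include uq

theorem sym' (ha : C a f) (hb : C b g) (h : β f b = 0) : β g a = 0 := by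
  by_contra h'
  obtain ⟨f', h1, h2⟩ := G.sym ha hb h'
  obtain ⟨x, rfl⟩ := uq _ _ _ ha h1
  simp [h] at h2

theorem triple (ha : C a f) (hb : C b g) (hd : C d k) :
    β k b * β f d * β g a = -(β g d * β k a * β f b) := by
  by_cases h1 : β g d = 0
  · simp [h1, G.sym' uq hb hd h1]
  by_cases h2 : β f b = 0
  · simp [h2, G.sym' uq ha hb h2]
  have := G.sym' uq ha (G.cj hb hd (-β f d / (β g d * β f b))) (by simp; field_simp; ring)
  simp only [map_sub, map_smul, LinearMap.sub_apply, LinearMap.smul_apply, smul_eq_mul] at this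
  field_simp at this
  linear_combination this

theorem exists_theta (ha : C a f) : ∃ θ : geoW F C →ₗ[F] Y, ∀ w : geoW F C, w ≠ 0 → C w (θ w) := by
  obtain ⟨c, _, hc, hfc, -⟩ := G.ni ha
  have nm : ∀ w ∈ geoW F C, β f w ≠ 0 → ∃ k, C w k ∧ β k a = -β f w := fun w hw h => by
    obtain ⟨k, hk⟩ := G.exists_axis hw (fun e => h (by simp [e]))
    have : β k a ≠ 0 := fun e => h (G.sym' uq hk ha e)
    exact ⟨_, G.sc2 hk (div_ne_zero (neg_ne_zero.2 h) this), by simp [this]⟩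
  let R : X → Y → Prop := fun w φ => φ ∈ geoW F (fun f a => C a f) ∧
    ∀ u k, C u k → β f u ≠ 0 → β k a = -β f u → β φ u = -β k w
  have radd : ∀ w φ w' φ', R w φ → R w' φ' → R (w + w') (φ + φ') := fun w φ w' φ' h h' =>
    ⟨Submodule.add_mem _ h.1 h'.1, fun u k h1 h2 h3 => by
      simp [h.2 u k h1 h2 h3, h'.2 u k h1 h2 h3, add_comm]⟩
  have rsm : ∀ (x : F) w φ, R w φ → R (x • w) (x • φ) := fun x w φ h =>
    ⟨Submodule.smul_mem _ _ h.1, fun u k h1 h2 h3 => by simp [h.2 u k h1 h2 h3]⟩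
  have rU : ∀ w k, C w k → β f w ≠ 0 → β k a = -β f w → R w k := fun w k hw h1 h2 =>
    ⟨mem hw, fun u l h3 h4 h5 => by
      have := G.triple uq ha hw h3
      rw [h2, h5] at this
      exact mul_left_cancel₀ (mul_ne_zero h1 h4) (by linear_combination -this)⟩
  have uniq : ∀ w φ φ', R w φ → R w φ' → φ = φ' := fun w φ φ' h h' => by
    have e : ∀ u ∈ geoW F C, β f u ≠ 0 → β φ u = β φ' u := fun u hu h1 => by
      obtain ⟨k, h2, h3⟩ := nm u hu h1
      rw [h.2 u k h2 h1 h3, h'.2 u k h2 h1 h3]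
    refine sub_eq_zero.1 (G.eq_zero (Submodule.sub_mem _ h.1 h'.1) fun u hu => ?_)
    by_cases h1 : β f u = 0
    · have e1 := e (u + c) (Submodule.add_mem _ hu (mem hc)) (by simp [h1, hfc])
      simpa [e c (mem hc) hfc, sub_eq_zero] using e1
    · simp [e u hu h1]
  have ex : ∀ w : geoW F C, ∃ φ, R w φ := fun ⟨w, hw⟩ => by
    have e : ∀ u ∈ geoW F C, β f u ≠ 0 → ∃ φ, R u φ := fun u hu h1 => by
      obtain ⟨k, h2, h3⟩ := nm u hu h1
      exact ⟨k, rU u k h2 h1 h3⟩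
    by_cases h1 : β f w = 0
    · obtain ⟨φ, h2⟩ := e (w + c) (Submodule.add_mem _ hw (mem hc)) (by simp [h1, hfc])
      obtain ⟨φ', h3⟩ := e c (mem hc) hfc
      exact ⟨_, by simpa using radd _ _ _ _ h2 (rsm (-1) _ _ h3)⟩
    · exact e w hw h1
  choose θ hθ using ex
  have hU : ∀ w : geoW F C, β f w ≠ 0 → C w (θ w) ∧ β (θ w) a = -β f w := fun w h => by
    obtain ⟨k, h2, h3⟩ := nm w w.2 h
    rw [uniq _ _ _ (hθ w) (rU _ k h2 h h3)]
    exact ⟨h2, h3⟩
  have hadd : ∀ w w', θ (w + w') = θ w + θ w' := fun w w' =>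
    uniq _ _ _ (hθ _) (radd _ _ _ _ (hθ w) (hθ w'))
  refine ⟨⟨⟨θ, hadd⟩, fun x w => uniq _ _ _ (hθ _) (rsm x _ _ (hθ w))⟩, fun w h0 => ?_⟩
  change C w (θ w)
  by_cases h1 : β f w = 0
  swap
  · exact (hU w h1).1
  obtain ⟨k, hk⟩ := G.exists_axis w.2 (by simpa using h0)
  obtain ⟨d, h2, h3⟩ : ∃ d : geoW F C, β f d ≠ 0 ∧ β k d ≠ 0 := by
    obtain ⟨v, _, hv, h2, -⟩ := G.ni hk
    by_cases e1 : β f v = 0
    · by_cases e2 : β k c = 0
      · exact ⟨⟨v + c, Submodule.add_mem _ (mem hv) (mem hc)⟩, by simp [e1, hfc], by simp [e2, h2]⟩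
      · exact ⟨⟨c, mem hc⟩, hfc, e2⟩
    · exact ⟨⟨v, mem hv⟩, e1, h2⟩
  obtain ⟨h4, h5⟩ := hU d h2
  have h6 : β (θ d) w ≠ 0 := fun e => h3 (G.sym' uq h4 hk e)
  obtain ⟨h7, -⟩ := hU (w - d) (by simp [h1, h2])
  have h8 := (hθ (w - d)).2 _ _ h4 h2 h5
  have := G.cj h4 h7 (β (θ d) w)⁻¹
  rw [h8] at this
  simp only [Submodule.coe_sub, map_sub, G.z h4, sub_zero, mul_neg, inv_mul_cancel₀ h6, one_smul,
    sub_add_cancel, neg_smul, sub_neg_eq_add] at this
  rwa [← hadd, sub_add_cancel] at this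

end sp

theorem dichotomy : (∀ a ∈ geoW F C, ∀ g ∈ geoW F (fun f a => C a f), a ≠ 0 → g ≠ 0 → β g a = 0 →
    C a g) ∨ ((∀ a f g, C a f → C a g → ∃ x : F, g = x • f) ∧
      ∃ θ : geoW F C →ₗ[F] Y, ∀ w : geoW F C, w ≠ 0 → C w (θ w)) := by
  by_cases h : ∃ a f g, C a f ∧ C a g ∧ ∀ x : F, g ≠ x • f
  · exact Or.inl fun a ha g hg => G.full h ha hg
  push Not at h
  by_cases h' : ∃ a f, C a f
  · obtain ⟨a, f, ha⟩ := h'
    exact Or.inr ⟨h, G.exists_theta h ha⟩
  · exact Or.inl fun a ha g _ a0 _ _ => absurd ⟨a, G.exists_axis ha a0⟩ h'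

end Geo

end Cfsg.Agent.H8
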