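import Cfsg.Agent.H6.Iwa

/-! Generation of `SL(W)` and `Sp(W)` by transvections, coordinate-free. -/

set_option autoImplicit false

namespace Cfsg.Agent.H8

open Matrix Module H6

variable {F W : Type*} [Field F] [AddCommGroup W] [Module F W]

theorem tv_coord {ι : Type*} [Fintype ι] [DecidableEq ι] (b : Basis ι F W) {t : W ≃ₗ[F] W}
    {a f : ι → F} (h : f ⬝ᵥ a = 0) (e : ∀ v, b.equivFun (t v) = tv a f *ᵥ b.equivFun v) :
    ∃ (φ : Dual F W) (x : W), φ x = 0 ∧ ∀ v, t v = v + φ v • x :=
  ⟨(dotProductBilin F F f).comp b.equivFun.toLinearMap, b.equivFun.symm a,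
    (congrArg (f ⬝ᵥ ·) (b.equivFun.apply_symm_apply a)).trans h,
    fun v => b.equivFun.injective (by
      rw [e, tv_mulVec, map_add, map_smul, LinearEquiv.apply_symm_apply]; rfl)⟩

variable [FiniteDimensional F W] {L : Subgroup (W ≃ₗ[F] W)}

theorem mem_of_det
    (h : ∀ (t : W ≃ₗ[F] W) (φ : Dual F W) (a : W), φ a = 0 → (∀ v, t v = v + φ v • a) → t ∈ L)
    {f : W ≃ₗ[F] W} (hf : LinearMap.det (f : W →ₗ[F] W) = 1) : f ∈ L := by
  let b := Module.finBasis F W
  let Ψ := SpecialLinearGroup.toLinearEquiv.comp (Matrix.SpecialLinearGroup.toLin_equiv b).toMonoidHom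
  have hΨ : ∀ x v, b.equivFun (Ψ x v) = x.1 *ᵥ b.equivFun v := fun x v => by
    have := LinearMap.toMatrix_mulVec_repr b b (Matrix.toLin b b x.1) v
    rw [LinearMap.toMatrix_toLin] at this
    exact this.symm
  obtain ⟨x, rfl⟩ : ∃ x, Ψ x = f :=
    ⟨(Matrix.SpecialLinearGroup.toLin_equiv b).symm ⟨f, Units.ext (by simpa using hf)⟩, by
      simp [Ψ]; rfl⟩
  rcases subsingleton_or_nontrivial (Fin (finrank F W)) with hs | hs
  · rw [Subsingleton.elim x 1, map_one]
    exact L.one_mem
  · have : tvSub (slRho (Fin (finrank F W)) F) ≤ L.comap Ψ := by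
      rw [tvSub, Subgroup.closure_le]
      rintro t ⟨a, g, h1, h2⟩
      obtain ⟨φ, y, h3, h4⟩ := tv_coord b h1 (t := Ψ t) fun v => by rw [hΨ, ← h2]; rfl
      exact h _ φ y h3 h4
    exact this (by rw [sl_tvSub]; trivial)

theorem mem_of_isom {B : LinearMap.BilinForm F W} (hB : B.IsAlt) (hn : B.Nondegenerate)
    (h : ∀ (t : W ≃ₗ[F] W) (c : F) (a : W), (∀ v, t v = v + (c * B v a) • a) → t ∈ L)
    {f : W ≃ₗ[F] W} (hf : ∀ x y, B (f x) (f y) = B x y) : f ∈ L := by
  let b := Module.finBasis F W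
  let I : Subgroup (W ≃ₗ[F] W) :=
    { carrier := {f | ∀ x y, B (f x) (f y) = B x y}
      one_mem' := fun _ _ => rfl
      mul_mem' := fun hf hg x y => (hf _ _).trans (hg x y)
      inv_mem' := fun {f} hf x y => by rw [← hf]; simp }
  let ρ : I →* Matrix (Fin (finrank F W)) (Fin (finrank F W)) F :=
    { toFun := fun g => LinearMap.toMatrix b b g.1
      map_one' := LinearMap.toMatrix_id b
      map_mul' := fun g h => LinearMap.toMatrix_mul b _ _ }
  have hρ : ∀ g v, ρ g *ᵥ b.equivFun v = b.equivFun (g.1 v) := fun g v =>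
    LinearMap.toMatrix_mulVec_repr b b _ v
  have hA : ∀ x y, bf (LinearMap.BilinForm.toMatrix b B) (b.equivFun x) (b.equivFun y) = B x y :=
    fun x y => (LinearMap.BilinForm.apply_eq_dotProduct_toMatrix_mulVec b B x y).symm
  have U : Splike ρ (LinearMap.BilinForm.toMatrix b B) :=
    { alt := fun v => by
        obtain ⟨x, rfl⟩ := b.equivFun.surjective v
        rw [hA, hB x]
      det := (LinearMap.BilinForm.nondegenerate_iff_det_ne_zero b).1 hn
      inj := fun g g' e => Subtype.ext (LinearEquiv.ext fun v => b.equivFun.injective (by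
        rw [← hρ, ← hρ, e]))
      isom := fun g u v => by
        obtain ⟨x, rfl⟩ := b.equivFun.surjective u
        obtain ⟨y, rfl⟩ := b.equivFun.surjective v
        rw [hρ, hρ, hA, hA, g.2]
      surj := fun M hM => by
        have e : ∀ v, b.equivFun (Matrix.toLin b b M v) = M *ᵥ b.equivFun v := fun v => by
          have := LinearMap.toMatrix_mulVec_repr b b (Matrix.toLin b b M) v
          rw [LinearMap.toMatrix_toLin] at this
          exact this.symm
        have e' : ∀ x y, B (Matrix.toLin b b M x) (Matrix.toLin b b M y) = B x y := fun x y => by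
          rw [← hA, e, e, hM, hA]
        have inj : Function.Injective (Matrix.toLin b b M) :=
          (injective_iff_map_eq_zero _).2 fun x hx => hn.1 x fun y => by rw [← e', hx]; simp
        exact ⟨⟨LinearEquiv.ofInjectiveEndo _ inj, e'⟩, LinearMap.toMatrix_toLin b b M⟩ }
  have : tvSub ρ ≤ L.comap I.subtype := by
    rw [tvSub, Subgroup.closure_le]
    intro t ht
    rcases TvOr1.cases ht with e | ⟨a, g, hg⟩
    · rw [U.inj (e.trans (map_one _).symm)]
      exact Subgroup.one_mem _
    · obtain ⟨c, -, hc⟩ := (U.toIsom.par_pf hg).symm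
      obtain ⟨x, rfl⟩ := b.equivFun.surjective a
      refine h _ c x fun v => b.equivFun.injective ?_
      change b.equivFun (t.1 v) = _
      rw [← hρ, hg.2.2.2, tv_mulVec, hc, smul_dotProduct, pb_dot, hA, map_add, map_smul, smul_eq_mul]
  exact this (show (⟨f, hf⟩ : I) ∈ tvSub ρ from U.tvSub_eq_top ▸ Subgroup.mem_top _)

end Cfsg.Agent.H8
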