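import Cfsg.Agent.H8.McL
import Cfsg.Agent.H8.Lin
import Cfsg.Agent.H3.BaerSuzuki
import Cfsg.Agent.L.Core

/-! Transvections in a finite linear group over a prime field. -/

set_option autoImplicit false

namespace Cfsg.Agent.H8.McL

open Module QP

variable {F V : Type*} [Field F] [AddCommGroup V] [Module F V]

/-- the rank one map `v ↦ f v • a` -/
def rk (a : V) (f : Dual F V) : End F V := f.smulRight a

@[simp] theorem rk_apply (a : V) (f : Dual F V) (v : V) : rk a f v = f v • a := rfl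

theorem rk_mul (a b : V) (f g : Dual F V) : rk a f * rk b g = f b • rk a g := by
  ext v; simp [smul_smul, mul_comm]

theorem rk_mul3 (a b : V) (f g : Dual F V) : rk a f * rk b g * rk a f = (f b * g a) • rk a f := by
  rw [rk_mul, smul_mul_assoc, rk_mul, smul_smul]

theorem rk_ne {a : V} {f : Dual F V} (ha : a ≠ 0) (hf : f ≠ 0) : rk a f ≠ 0 := fun h =>
  hf (LinearMap.ext fun v => by simpa [ha] using LinearMap.congr_fun h v)

variable (H : Subgroup (V ≃ₗ[F] V))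

/-- the natural representation -/
def rho : H →* End F V := LinearEquiv.automorphismGroup.toLinearMapMonoidHom.comp H.subtype

@[simp] theorem rho_apply (g : H) (v : V) : rho H g v = g.1 v := rfl

/-- `1 + s` lies in `H` -/
def N (s : End F V) : Prop := ∃ g : H, rho H g = 1 + s

/-- transvections of `H` -/
def Tv (a : V) (f : Dual F V) : Prop := a ≠ 0 ∧ f ≠ 0 ∧ f a = 0 ∧ N H (rk a f)

/-- the family of transvections -/
def fam : Set (End F V) := {s | ∃ a f, Tv H a f ∧ s = rk a f}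

/-- the transvection subgroups -/
abbrev Sg : Set (Subgroup H) := Lq F (rho H) '' fam H

variable {H} {a b c : V} {f g h : Dual F V} {s t : End F V}

theorem rho_inj : Function.Injective (rho H) := fun _ _ e =>
  Subtype.ext (LinearEquiv.ext fun v => LinearMap.congr_fun e v)

theorem N.add (hs : N H s) (ht : N H t) (e : s * t = 0) : N H (s + t) := by
  obtain ⟨x, hx⟩ := hs
  obtain ⟨y, hy⟩ := ht
  exact ⟨x * y, by rw [map_mul, hx, hy]; nlc e⟩

theorem Tv.sq (h : Tv H a f) : rk a f * rk a f = 0 := by rw [rk_mul, h.2.2.1, zero_smul]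

theorem Tv.mem (h : Tv H a f) : rk a f ∈ fam H := ⟨a, f, h, rfl⟩

theorem rk_conj (x : H) (a : V) (f : Dual F V) :
    rho H x * rk a f * rho H x⁻¹ = rk (rho H x a) (f ∘ₗ rho H x⁻¹) := by
  ext v; simp

theorem Tv.conj (h : Tv H a f) (x : H) : Tv H (rho H x a) (f ∘ₗ rho H x⁻¹) := by
  obtain ⟨h1, h2, h3, y, hy⟩ := h
  refine ⟨by simpa using h1, fun e => h2 (LinearMap.ext fun v => ?_), by simpa using h3,
    x * y * x⁻¹, ?_⟩
  · simpa using LinearMap.congr_fun e (x.1 v)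
  · rw [← rk_conj, map_mul, map_mul, hy, mul_add, add_mul, mul_one, rho_mul_inv]

theorem comm_iff (ha : Tv H a f) (hb : Tv H b g) :
    rk a f * rk b g = rk b g * rk a f ↔ f b = 0 ∧ g a = 0 := by
  rw [rk_mul, rk_mul]
  refine ⟨fun e => ?_, fun ⟨h1, h2⟩ => by simp [h1, h2]⟩
  have h1 : g a * f b = 0 := by
    have := congrArg (rk a f * ·) e
    simp only [mul_smul_comm, rk_mul, ha.2.2.1, zero_smul, smul_zero, smul_smul] at this
    exact (smul_eq_zero.1 this.symm).resolve_right (rk_ne ha.1 ha.2.1)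
  rcases mul_eq_zero.1 h1 with h1 | h1
  · rw [h1, zero_smul, smul_eq_zero] at e
    exact ⟨e.resolve_right (rk_ne ha.1 hb.2.1), h1⟩
  · rw [h1, zero_smul, eq_comm, smul_eq_zero] at e
    exact ⟨h1, e.resolve_right (rk_ne hb.1 ha.2.1)⟩

variable (hF : ∀ c : F, ∃ n : ℕ, (n : F) = c)
include hF

theorem N.smul (hs : N H s) (e : s * s = 0) (c : F) : N H (c • s) := by
  obtain ⟨x, hx⟩ := hs
  obtain ⟨n, rfl⟩ := hF c
  refine ⟨x ^ n, ?_⟩
  induction n with
  | zero => simp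
  | succ n ih => rw [pow_succ, map_mul, ih, hx, Nat.cast_succ]; nlc esm (n : F) e

theorem Tv.sc (h : Tv H a f) {x y : F} (hx : x ≠ 0) (hy : y ≠ 0) : Tv H (x • a) (y • f) :=
  ⟨smul_ne_zero hx h.1, smul_ne_zero hy h.2.1, by simp [h.2.2.1], by
    convert h.2.2.2.smul hF h.sq (y * x) using 1
    ext v; simp [smul_smul]; ring_nf⟩

theorem Tv.cj (ha : Tv H a f) (b : V) (g : Dual F V) (l : F) :
    ∃ x : H, b + (l * f b) • a = rho H x b ∧ g - (l * g a) • f = g ∘ₗ rho H x⁻¹ := by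
  obtain ⟨x, hx⟩ := ha.2.2.2.smul hF ha.sq l
  refine ⟨x, by simp only [hx]; simp [smul_smul], ?_⟩
  rw [rho_inv_of (smul_sq_zero ha.sq l) hx]
  ext v; simp; ring

theorem Tv.cc (ha : Tv H a f) (hb : Tv H b g) (h1 : f b ≠ 0) (h2 : g a = 0) : Tv H a g := by
  obtain ⟨x, e1, e2⟩ := ha.cj hF b g (f b)⁻¹
  have := hb.conj x
  rw [← e1, ← e2, h2, mul_zero, zero_smul, sub_zero, inv_mul_cancel₀ h1, one_smul] at this
  refine ⟨ha.1, hb.2.1, h2, ?_⟩
  convert this.2.2.2.add (hb.2.2.2.smul hF hb.sq (-1)) (by simp [rk_mul, hb.2.2.1]) using 1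
  ext v; simp

theorem isFam : Fam F (rho H) (fam H) where
  inj := rho_inj
  sq := by
    rintro _ ⟨a, f, h, rfl⟩
    exact h.sq
  ne := by
    rintro _ ⟨a, f, h, rfl⟩
    exact rk_ne h.1 h.2.1
  full := by
    rintro _ ⟨a, f, h, rfl⟩
    exact h.2.2.2.smul hF h.sq
  conj := by
    rintro _ ⟨a, f, h, rfl⟩ x
    exact ⟨_, _, h.conj x, rk_conj x a f⟩
  tri := by
    rintro _ ⟨a, f, ha, rfl⟩ _ ⟨b, g, hb, rfl⟩
    by_cases h1 : f b = 0 <;> by_cases h2 : g a = 0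
    · exact Or.inl ((comm_iff ha hb).2 ⟨h1, h2⟩)
    · refine Or.inr (Or.inr ⟨by simp [rk_mul3, h1], by simp [rk_mul3, h1], _, _,
        (hb.cc hF ha h2 h1).sc hF (neg_ne_zero.2 h2) one_ne_zero, ?_⟩)
      ext v; simp [h1, smul_smul]
    · refine Or.inr (Or.inr ⟨by simp [rk_mul3, h2], by simp [rk_mul3, h2], _, _,
        (ha.cc hF hb h1 h2).sc hF h1 one_ne_zero, ?_⟩)
      ext v; simp [h2, smul_smul]
    · exact Or.inr (Or.inl ⟨_, mul_ne_zero h1 h2, rk_mul3 .., by rw [rk_mul3, mul_comm]⟩)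

theorem ro_iff (ha : Tv H a f) (hb : Tv H b g) :
    IsRankOnePair (Lq F (rho H) (rk a f)) (Lq F (rho H) (rk b g)) ↔ f b ≠ 0 ∧ g a ≠ 0 := by
  refine ⟨fun h => ?_, fun ⟨h1, h2⟩ => (isFam hF).ro ha.mem hb.mem (mul_ne_zero h1 h2)
    (rk_mul3 ..) (by rw [rk_mul3, mul_comm])⟩
  rw [← mul_ne_zero_iff]
  exact fun e => (isFam hF).not_ro ha.mem hb.mem (by rw [rk_mul3, e, zero_smul])
    (by rw [rk_mul3, mul_comm, e, zero_smul]) h

omit hF in
theorem ni_of_pCore [Finite H] {p : ℕ} [Fact p.Prime] [CharP F p] (hp : 3 ≤ p)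
    (hO : pCore p H = ⊥) (ha : Tv H a f) : ∃ b g, Tv H b g ∧ f b ≠ 0 ∧ g a ≠ 0 := by
  by_contra hc
  push Not at hc
  obtain ⟨x, hx⟩ := ha.2.2.2
  have : Nontrivial (End F V) := ⟨_, _, rk_ne ha.1 ha.2.1⟩
  have : CharP (End F V) p := charP_of_injective_algebraMap (algebraMap F _).injective p
  obtain ⟨M, hM, hp', hxM⟩ := H3.baer_suzuki_elem (p := p) (x := x) fun y => by
    have hb := ha.conj y
    have hy : rho H (y * x * y⁻¹) = 1 + rk (rho H y a) (f ∘ₗ rho H y⁻¹) := by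
      rw [← rk_conj, map_mul, map_mul, hx, mul_add, add_mul, mul_one, rho_mul_inv]
    have e0 : f (rho H y a) * (f ∘ₗ rho H y⁻¹) a = 0 := by
      rw [mul_eq_zero, or_iff_not_imp_left]
      exact hc _ _ hb
    have e1 := rk_mul3 a (rho H y a) f (f ∘ₗ rho H y⁻¹)
    have e2 := rk_mul3 (rho H y a) a (f ∘ₗ rho H y⁻¹) f
    rw [e0, zero_smul] at e1
    rw [mul_comm (_ : F), e0, zero_smul] at e2
    have s2 := ha.sq
    have t2 := hb.sq
    generalize rk (rho H y a) (f ∘ₗ rho H y⁻¹) = t at *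
    generalize rk a f = s at *
    have k1 : ∀ z, s * (s * z) = 0 := fun z => by rw [← mul_assoc, s2, zero_mul]
    have k2 : ∀ z, t * (t * z) = 0 := fun z => by rw [← mul_assoc, t2, zero_mul]
    rw [mul_assoc] at e1 e2
    rintro ⟨z, hz⟩
    obtain ⟨α, β, γ, δ, e⟩ :
        ∃ α β γ δ : F, rho H z = 1 + (α • s + β • t + γ • (s * t) + δ • (t * s)) := by
      induction hz using Subgroup.closure_induction'' with
      | mem z hz =>
        rcases hz with rfl | rfl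
        exacts [⟨1, 0, 0, 0, by simp [hx]⟩, ⟨0, 1, 0, 0, by rw [hy]; simp⟩]
      | inv_mem z hz =>
        rcases hz with rfl | rfl
        exacts [⟨-1, 0, 0, 0, by simp [rho_inv_of s2 hx, sub_eq_add_neg]⟩,
          ⟨0, -1, 0, 0, by rw [rho_inv_of t2 hy]; simp [sub_eq_add_neg]⟩]
      | one => exact ⟨0, 0, 0, 0, by simp⟩
      | mul z w _ _ hz hw =>
        obtain ⟨α, β, γ, δ, e⟩ := hz
        obtain ⟨α', β', γ', δ', e'⟩ := hw
        refine ⟨α + α', β + β', γ + γ' + α * β', δ + δ' + β * α', ?_⟩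
        rw [map_mul, e, e']
        simp only [mul_add, add_mul, one_mul, mul_one, smul_mul_assoc, mul_smul_comm, mul_assoc, k1,
          k2, s2, t2, e1, e2, mul_zero, smul_zero]
        module
    refine ⟨1, Subtype.ext (rho_inj ?_)⟩
    change rho H (z ^ p ^ 1) = rho H 1
    rw [pow_one, map_pow, e, add_pow_char_of_commute _ (Commute.one_left _), one_pow, map_one,
      pow_eq_zero_of_le hp, add_zero]
    simp only [pow_succ, pow_zero, mul_add, add_mul, one_mul, smul_mul_assoc, mul_smul_comm,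
      mul_assoc, k1, k2, s2, t2, e1, e2, mul_zero, zero_mul, smul_zero, add_zero]
  have := L.le_pCore hp' hxM
  rw [hO, Subgroup.mem_bot] at this
  rw [this, map_one] at hx
  exact rk_ne ha.1 ha.2.1 (by nlc -hx)

omit hF in
variable (H) in
/-- components of the set of transvection subgroups (or the empty set) -/
def IsComp (C : Set (Subgroup H)) : Prop :=
  (∀ A ∈ C, ∀ B, Reach (Sg H) A B → B ∈ C) ∧ (∀ A ∈ C, ∀ B ∈ C, Reach (Sg H) A B)

omit hF in
/-- the transvections of a component -/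
def Rel (C : Set (Subgroup H)) (a : V) (f : Dual F V) : Prop :=
  Tv H a f ∧ Lq F (rho H) (rk a f) ∈ C

variable (hN : ∀ {a : V} {f : Dual F V}, Tv H a f → ∃ b g, Tv H b g ∧ f b ≠ 0 ∧ g a ≠ 0)
  {C : Set (Subgroup H)} (hC : IsComp H C)
include hN

theorem ni (A : Subgroup H) (hA : A ∈ Sg H) : NI (Sg H) A := by
  obtain ⟨_, ⟨a, f, ha, rfl⟩, rfl⟩ := hA
  obtain ⟨b, g, hb, h⟩ := hN ha
  exact ⟨_, ⟨_, hb.mem, rfl⟩, (ro_iff hF ha hb).2 h⟩

include hC

theorem Rel.of_ne (ha : Rel C a f) (hb : Tv H b g) (h : f b ≠ 0 ∨ g a ≠ 0) : Rel C b g := by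
  refine ⟨hb, hC.1 _ ha.2 _ ?_⟩
  by_contra hr
  have := (comm_iff ha.1 hb).1 (((isFam hF).cm_iff ha.1.mem hb.mem).1
    ((isFam hF).lrs.cm_of_not_reach (ni hF hN) ⟨_, ha.1.mem, rfl⟩ ⟨_, hb.mem, rfl⟩ hr))
  tauto

theorem Rel.of_mem (hb : Tv H b g) (h : b ∈ geoW F (Rel C)) : Rel C b g := by
  obtain ⟨c, k, hc, h1, h2⟩ := hN hb
  obtain ⟨a, f, ha, h3⟩ : ∃ a f, Rel C a f ∧ k a ≠ 0 := by
    by_contra hcon
    push Not at hcon
    exact h2 ((Submodule.span_le (p := LinearMap.ker k)).2 (fun a ha => ha.elim (hcon a)) h)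
  exact (ha.of_ne hF hN hC hc (Or.inr h3)).of_ne hF hN hC hb (Or.inl h2)

theorem Rel.conj (hg : (⨆ A ∈ Sg H, A) = ⊤) (ha : Rel C a f) (x : H) :
    Rel C (rho H x a) (f ∘ₗ rho H x⁻¹) := by
  refine ⟨ha.1.conj x, hC.1 _ ha.2 _ ?_⟩
  rw [← rk_conj, ← smul_Lq]
  exact (isFam hF).lrs.reach_smul (ni hF hN) ⟨_, ha.1.mem, rfl⟩ (hg ▸ Subgroup.mem_top x)

theorem geo (h2 : (2 : F) ≠ 0) : Geo (LinearMap.id : Dual F V →ₗ[F] Dual F V) (Rel C) where
  two := h2
  z := fun h => h.1.2.2.1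
  sc := fun h hx hy => Rel.of_mem hF hN hC (h.1.sc hF hx hy) (Submodule.smul_mem _ _ (Geo.mem h))
  cj := fun {a f b g} ha hb l => by
    refine Rel.of_mem hF hN hC ?_
      (Submodule.add_mem _ (Geo.mem hb) (Submodule.smul_mem _ _ (Geo.mem ha)))
    obtain ⟨x, e1, e2⟩ := ha.1.cj hF b g l
    simpa only [LinearMap.id_apply, e1, e2] using hb.1.conj x
  cc := fun ha hb h1 h2 => Rel.of_mem hF hN hC (ha.1.cc hF hb.1 h1 h2) (Geo.mem ha)
  ni := fun ha => by
    obtain ⟨b, g, hb, h⟩ := hN ha.1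
    exact ⟨b, g, ha.of_ne hF hN hC hb (Or.inl h.1), h⟩
  add1 := fun {a f g} ha hb h => by
    refine Rel.of_mem hF hN hC ⟨ha.1.1, h, by simp [ha.1.2.2.1, hb.1.2.2.1], ?_⟩ (Geo.mem ha)
    convert ha.1.2.2.2.add hb.1.2.2.2 (by simp [rk_mul, ha.1.2.2.1]) using 1
    ext v; simp [add_smul]
  add2 := fun {a b f} ha hb h => by
    refine Rel.of_mem hF hN hC ⟨h, ha.1.2.1, by simp [ha.1.2.2.1, hb.1.2.2.1], ?_⟩
      (Submodule.add_mem _ (Geo.mem ha) (Geo.mem hb))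
    convert ha.1.2.2.2.add hb.1.2.2.2 (by simp [rk_mul, hb.1.2.2.1]) using 1
    ext v; simp
  quad := fun {a f b g} ha hb hab h1 h2 h3 h4 => by
    change f b = 0 at h1
    change g a = 0 at h2
    refine Rel.of_mem hF hN hC ⟨h3, h4, by simp [ha.1.2.2.1, hb.1.2.2.1, h1, h2], ?_⟩
      (Submodule.sub_mem _ (Geo.mem ha) (Geo.mem hb))
    convert ((ha.1.2.2.2.smul hF ha.1.sq 2).add (hb.1.2.2.2.smul hF hb.1.sq 2)
      (by simp [rk_mul, h1])).add (hab.1.2.2.2.smul hF hab.1.sq (-1))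
      (by simp [add_mul, rk_mul, ha.1.2.2.1, hb.1.2.2.1, h1, h2]) using 1
    ext v
    simp only [rk_apply, LinearMap.add_apply, LinearMap.sub_apply, LinearMap.smul_apply]
    module
  conn := fun P hP a f b g ha hb h => by
    have key : ∀ B, Reach (Sg H) (Lq F (rho H) (rk a f)) B →
        ∀ b g, Tv H b g → Lq F (rho H) (rk b g) = B → P b g := fun B hB => by
      induction hB with
      | refl =>
        intro b g hb e
        obtain ⟨c, k, hc, h1⟩ := hN ha.1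
        have hc' := ha.of_ne hF hN hC hc (Or.inl h1.1)
        have h3 := (ro_iff hF hb hc).1 (e ▸ (ro_iff hF ha.1 hc).2 h1)
        exact hP _ _ _ _ hc' ⟨hb, e ▸ ha.2⟩ h3.2 h3.1 (hP _ _ _ _ ha hc' h1.1 h1.2 h)
      | tail h1 h2 ih =>
        rintro d k hd rfl
        obtain ⟨⟨_, ⟨b, g, hb, rfl⟩, rfl⟩, -, hr⟩ := h2
        have h3 := (ro_iff hF hb hd).1 hr
        have hb' : Rel C b g := ⟨hb, hC.1 _ ha.2 _ h1⟩
        exact hP _ _ _ _ hb' (hb'.of_ne hF hN hC hd (Or.inl h3.1)) h3.1 h3.2 (ih b g hb rfl)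
    exact key _ (hC.2 _ ha.2 _ hb.2) b g hb.1 rfl

end Cfsg.Agent.H8.McL
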