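import Cfsg.Agent.H8.McL2
import Cfsg.Agent.H8.McL3

/-! McLaughlin's theorem: components and their modules. -/

set_option autoImplicit false

namespace Cfsg.Agent.H8.McL

open Module QP

variable {F V : Type*} [Field F] [AddCommGroup V] [Module F V] {H : Subgroup (V ≃ₗ[F] V)}
  {a b : V} {f g : Dual F V} {C C' : Set (Subgroup H)}

/-- the group generated by a component -/
def KK (C : Set (Subgroup H)) : Subgroup (V ≃ₗ[F] V) :=
  Subgroup.closure {t | ∃ a f, Rel C a f ∧ ∀ v, t v = v + f v • a}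

variable (H) in
/-- the common fixed space -/
def W0 : Submodule F V where
  carrier := {v | ∀ a f, Tv H a f → f v = 0}
  zero_mem' := fun _ _ _ => map_zero _
  add_mem' := fun h h' a f ha => by rw [map_add, h a f ha, h' a f ha, add_zero]
  smul_mem' := fun c _ h a f ha => by rw [map_smul, h a f ha, smul_zero]

theorem Tv.exists (h : Tv H a f) : ∃ t ∈ H, ∀ v, t v = v + f v • a := by
  obtain ⟨x, hx⟩ := h.2.2.2
  exact ⟨x, x.2, fun v => LinearMap.congr_fun hx v⟩

theorem Tv.mem_of (h : Tv H a f) {t : V ≃ₗ[F] V} (e : ∀ v, t v = v + f v • a) : t ∈ H := by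
  obtain ⟨x, hx, e'⟩ := h.exists
  rwa [LinearEquiv.ext fun v => (e v).trans (e' v).symm]

theorem KK_le : KK C ≤ H := (Subgroup.closure_le _).2 fun _ ⟨_, _, h, e⟩ => h.1.mem_of e

theorem KK_fix {x : V ≃ₗ[F] V} (hx : x ∈ KK C) {v : V} (h : ∀ a f, Rel C a f → f v = 0) :
    x v = v := by
  have : KK C ≤ MulAction.stabilizer (V ≃ₗ[F] V) v := (Subgroup.closure_le _).2
    fun t ⟨a, f, ha, e⟩ => show t v = v by rw [e, h a f ha, zero_smul, add_zero]
  exact this hx

theorem KK_sub {x : V ≃ₗ[F] V} (hx : x ∈ KK C) (v : V) : x v - v ∈ geoW F (Rel C) := by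
  induction hx using Subgroup.closure_induction generalizing v with
  | mem t ht =>
    obtain ⟨a, f, ha, e⟩ := ht
    rw [e, add_sub_cancel_left]
    exact Submodule.smul_mem _ _ (Geo.mem ha)
  | one => simp
  | mul x y _ _ hx hy => simpa using Submodule.add_mem _ (hx (y v)) (hy v)
  | inv x _ hx => simpa using Submodule.neg_mem _ (hx (x⁻¹ v))

theorem KK_mem {x : V ≃ₗ[F] V} (hx : x ∈ KK C) {v : V} (h : v ∈ geoW F (Rel C)) :
    x v ∈ geoW F (Rel C) := by simpa using Submodule.add_mem _ (KK_sub hx v) h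

theorem map_eq_of {W : Submodule F V} {x : V ≃ₗ[F] V} (h : ∀ w ∈ W, x w ∈ W)
    (h' : ∀ w ∈ W, x⁻¹ w ∈ W) : W.map (x : V →ₗ[F] V) = W :=
  le_antisymm (by rintro _ ⟨w, hw, rfl⟩; exact h w hw) fun w hw => ⟨_, h' w hw, by simp⟩

/-- the restriction to the module of a component -/
def res (C : Set (Subgroup H)) : KK C →* (geoW F (Rel C) ≃ₗ[F] geoW F (Rel C)) where
  toFun x := x.1.ofSubmodules _ _
    (map_eq_of (fun _ => KK_mem x.2) fun _ => KK_mem (Subgroup.inv_mem _ x.2))
  map_one' := rfl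
  map_mul' _ _ := rfl

theorem res_apply (x : KK C) (v : geoW F (Rel C)) : (res C x v : V) = x.1 v := rfl

theorem range_ind {P : (geoW F (Rel C) ≃ₗ[F] geoW F (Rel C)) → Prop} (h1 : P 1)
    (hm : ∀ x y, P x → P y → P (x * y)) (hi : ∀ x, P x → P x⁻¹)
    (hg : ∀ (t : geoW F (Rel C) ≃ₗ[F] geoW F (Rel C)) (a : geoW F (Rel C)) (f : Dual F V),
      Rel C a.1 f → (∀ v, t v = v + f v.1 • a) → P t)
    (x : KK C) : P (res C x) := by
  obtain ⟨x, hx⟩ := x
  induction hx using Subgroup.closure_induction with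
  | mem t ht =>
    obtain ⟨a, f, ha, e⟩ := ht
    exact hg _ ⟨a, Geo.mem ha⟩ f ha fun v => Subtype.ext (e v)
  | one => exact h1
  | mul x y hx hy h h' => exact hm _ _ h h'
  | inv x hx h => exact (map_inv (res C) ⟨x, hx⟩) ▸ hi _ h

theorem mem_range (ha : Rel C a f) {t : geoW F (Rel C) ≃ₗ[F] geoW F (Rel C)}
    (e : ∀ v, (t v : V) = v + f v • a) : t ∈ (res C).range := by
  obtain ⟨x, -, hx⟩ := ha.1.exists
  exact ⟨⟨x, Subgroup.subset_closure ⟨a, f, ha, hx⟩⟩,
    LinearEquiv.ext fun v => Subtype.ext ((hx v).trans (e v).symm)⟩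

theorem isComp_comp (A : Subgroup H) : IsComp H (comp (Sg H) A) :=
  ⟨fun _ h _ h' => Reach.trans h h', fun _ h _ h' => (Reach.symm h).trans h'⟩

theorem Tv.rel (h : Tv H a f) : Rel (comp (Sg H) (Lq F (rho H) (rk a f))) a f := ⟨h, Reach.refl _⟩

variable (hF : ∀ c : F, ∃ n : ℕ, (n : F) = c)
  (hN : ∀ {a : V} {f : Dual F V}, Tv H a f → ∃ b g, Tv H b g ∧ f b ≠ 0 ∧ g a ≠ 0)
  (h2 : (2 : F) ≠ 0) (hC : IsComp H C)
include hF hN hC

theorem perp (hC' : IsComp H C') (hne : C ≠ C') (ha : Rel C a f) {w : V}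
    (hw : w ∈ geoW F (Rel C')) : f w = 0 := by
  refine (Submodule.span_le (p := LinearMap.ker f)).2 (fun b hb => ?_) hw
  obtain ⟨g, hg⟩ := hb
  by_contra h
  have := (ha.of_ne hF hN hC hg.1 (Or.inl h)).2
  exact hne (Set.Subset.antisymm (fun B hB => hC'.1 _ hg.2 _ (hC.2 _ this _ hB))
    fun B hB => hC.1 _ this _ (hC'.2 _ hg.2 _ hB))

include h2

theorem eq_zero_of {w : V} (hw : w ∈ geoW F (Rel C)) (h : ∀ a f, Rel C a f → f w = 0) : w = 0 :=
  (geo hF hN hC h2).flip.eq_zero hw fun _ hφ =>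
    (Submodule.span_le (p := LinearMap.ker (Dual.eval F V w))).2 (fun f hf => hf.elim (h · f)) hφ

variable [FiniteDimensional F V]

theorem exists_proj (v : V) : ∃ w ∈ geoW F (Rel C), ∀ a f, Rel C a f → f w = f v := by
  have : geoW F (Rel C) ⊔ (geoW F fun f a => Rel C a f).dualCoannihilator = ⊤ := by
    rw [← Submodule.dualAnnihilator_eq_bot_iff, Submodule.dualAnnihilator_sup_eq,
      Subspace.dualCoannihilator_dualAnnihilator_eq, eq_bot_iff]
    exact fun φ h => (geo hF hN hC h2).eq_zero h.2 ((Submodule.mem_dualAnnihilator φ).1 h.1)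
  obtain ⟨w, hw, u, hu, rfl⟩ := Submodule.mem_sup.1 (this ▸ Submodule.mem_top (x := v))
  exact ⟨w, hw, fun a f ha => by
    rw [map_add, (Submodule.mem_dualCoannihilator u).1 hu f (Geo.mem ha), add_zero]⟩

theorem exists_ext (φ : Dual F (geoW F (Rel C))) :
    ∃ f ∈ geoW F fun f a => Rel C a f, ∀ w : geoW F (Rel C), f w = φ w := by
  have : (geoW F fun f a => Rel C a f) ⊔ (geoW F (Rel C)).dualAnnihilator = ⊤ := by
    rw [← Subspace.dualCoannihilator_dualAnnihilator_eq (W := _ ⊔ _),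
      Submodule.dualAnnihilator_eq_top_iff, Submodule.dualCoannihilator_sup_eq,
      Subspace.dualAnnihilator_dualCoannihilator_eq, eq_bot_iff]
    exact fun w h => eq_zero_of hF hN h2 hC h.2 fun a f ha =>
      (Submodule.mem_dualCoannihilator w).1 h.1 f (Geo.mem ha)
  obtain ⟨ψ, hψ⟩ := LinearMap.exists_extend φ
  obtain ⟨f, hf, u, hu, rfl⟩ := Submodule.mem_sup.1 (this ▸ Submodule.mem_top (x := ψ))
  exact ⟨f, hf, fun w => by
    simp [← hψ, (Submodule.mem_dualAnnihilator u).1 hu w w.2]⟩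

theorem range_res : ((res C).range : Set (geoW F (Rel C) ≃ₗ[F] geoW F (Rel C))) =
      {f : geoW F (Rel C) ≃ₗ[F] geoW F (Rel C) | LinearMap.det (f : geoW F (Rel C) →ₗ[F] geoW F (Rel C)) = 1} ∨
    ∃ B : LinearMap.BilinForm F (geoW F (Rel C)), B.IsAlt ∧ B.Nondegenerate ∧
      ((res C).range : Set (geoW F (Rel C) ≃ₗ[F] geoW F (Rel C))) =
        {f | ∀ x y, B (f x) (f y) = B x y} := by
  have G := geo hF hN hC h2
  rcases G.dichotomy with h | ⟨uq, θ, hθ⟩
  · refine Or.inl (Set.Subset.antisymm ?_ fun x hx => mem_of_det (fun t φ a e ht => ?_) hx)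
    · rintro _ ⟨x, rfl⟩
      refine range_ind (P := fun f => LinearMap.det (f : geoW F (Rel C) →ₗ[F] geoW F (Rel C)) = 1)
        LinearMap.det_id (fun x y hx hy => ?_) (fun x hx => ?_) (fun t a f ha e => ?_) x
      · rw [LinearEquiv.coe_toLinearMap_mul, map_mul, hx, hy, mul_one]
      · exact (one_mul _).symm.trans (hx ▸ LinearEquiv.det_mul_det_symm x)
      · rw [show (t : geoW F (Rel C) →ₗ[F] geoW F (Rel C)) =
          LinearMap.transvection (f ∘ₗ Submodule.subtype _) a from LinearMap.ext e,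
          LinearMap.transvection.det]
        simp [ha.1.2.2.1]
    · by_cases h0 : a = 0 ∨ φ = 0
      · rw [show t = 1 from LinearEquiv.ext fun v => by rcases h0 with rfl | rfl <;> simp [ht]]
        exact Subgroup.one_mem _
      push Not at h0
      obtain ⟨f, hf, ef⟩ := exists_ext hF hN h2 hC φ
      exact mem_range (h a a.2 f hf (by simpa using h0.1)
        (fun e => h0.2 (LinearMap.ext fun w => by simp [← ef, e])) ((ef a).trans e))
        fun v => by simp [ht, ef]
  · let B : LinearMap.BilinForm F (geoW F (Rel C)) :=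
      ((geoW F (Rel C)).subtype.dualMap ∘ₗ θ).flip
    have hB : ∀ x y, B x y = θ y x := fun _ _ => rfl
    have alt : B.IsAlt := fun x => by
      by_cases h0 : x = 0
      · simp [h0]
      · exact (hθ x h0).1.2.2.1
    have nd : B.Nondegenerate := by
      refine alt.isRefl.nondegenerate_iff_separatingRight.2 fun x hx => ?_
      by_contra h0
      obtain ⟨b, g, hb, h1, -⟩ := G.ni (hθ x h0)
      exact h1 (hx ⟨b, Geo.mem hb⟩)
    refine Or.inr ⟨B, alt, nd, Set.Subset.antisymm ?_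
      fun x hx => mem_of_isom alt nd (fun t c a ht => ?_) hx⟩
    · rintro _ ⟨x, rfl⟩
      refine range_ind (P := fun f => ∀ x y, B (f x) (f y) = B x y) (fun _ _ => rfl)
        (fun x y hx hy u v => (hx _ _).trans (hy u v)) (fun x hx u v => by rw [← hx]; simp)
        (fun t a f ha e u v => ?_) x
      obtain ⟨c, rfl⟩ := uq _ _ _ (hθ a (by simpa using ha.1.1)) ha
      simp only [e, LinearMap.smul_apply, ← hB, map_add, map_smul, LinearMap.add_apply, smul_eq_mul,
        alt _, ← alt.neg_eq v a]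
      ring
    · by_cases h0 : a = 0 ∨ c = 0
      · rw [show t = 1 from LinearEquiv.ext fun v => by rcases h0 with rfl | rfl <;> simp [ht]]
        exact Subgroup.one_mem _
      push Not at h0
      exact mem_range (G.sc2 (hθ a h0.1) h0.2) fun v => by simp [ht, hB]

end Cfsg.Agent.H8.McL
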